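import Cfsg.Prelude.Def_SylowChains
import Cfsg.Agent.Lib.Helper49.Conj
import Mathlib.Logic.Relation
import Mathlib.Data.List.OfFn

/-!
Reformulations of the notions of `Def_SylowControl` / `Def_SylowChains` through `Relation.ReflTransGen` and an
inductive predicate, which are more convenient than `Fin`-indexed chains.
-/

set_option autoImplicit false

namespace Cfsg.Agent.Lib.Helper49

open Subgroup Relation

/-- `Fin`-indexed chains versus the reflexive transitive closure. -/
theorem exists_chain_iff_reflTransGen {α : Type*} (r : α → α → Prop) (a b : α) :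
    (∃ (n : ℕ) (c : Fin (n + 1) → α), c 0 = a ∧ c (Fin.last n) = b ∧
      ∀ i : Fin n, r (c i.castSucc) (c i.succ)) ↔ ReflTransGen r a b := by
  constructor
  · rintro ⟨n, c, rfl, rfl, h⟩
    have : ∀ i : Fin (n + 1), ReflTransGen r (c 0) (c i) := by
      intro i
      induction i using Fin.induction with
      | zero => exact ReflTransGen.refl
      | succ i ih => exact ih.tail (h i)
    exact this _
  · intro h
    induction h with
    | refl => exact ⟨0, fun _ => a, rfl, rfl, fun i => i.elim0⟩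
    | @tail b c' _ hbc ih =>
      obtain ⟨n, c, h0, hl, hs⟩ := ih
      refine ⟨n + 1, Fin.snoc (α := fun _ => α) c c', ?_, ?_, ?_⟩
      · rw [← Fin.castSucc_zero, Fin.snoc_castSucc]; exact h0
      · rw [Fin.snoc_last]
      · intro i
        induction i using Fin.lastCases with
        | last => rw [Fin.snoc_castSucc, Fin.succ_last, Fin.snoc_last, hl]; exact hbc
        | cast j => rw [Fin.snoc_castSucc, Fin.succ_castSucc, Fin.snoc_castSucc]; exact hs j

variable {G : Type*} [Group G]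

theorem subgroupConjRight_eq (g : G) (X : Subgroup G) : Cfsg.subgroupConjRight g X = cj g⁻¹ X := rfl

theorem mem_conjRight {g b : G} {A : Set G} : b ∈ Cfsg.conjRight g A ↔ ∃ a ∈ A, g⁻¹ * a * g = b :=
  Iff.rfl

theorem IsNormalSet.cj_mem {𝓕 : Set (Subgroup G)} (h : Cfsg.IsNormalSet 𝓕) {X : Subgroup G} (hX : X ∈ 𝓕)
    (g : G) : cj g X ∈ 𝓕 := by
  have := h X hX g⁻¹
  rwa [subgroupConjRight_eq, inv_inv] at this

theorem mem_sylowMembers_iff [Finite G] {p : ℕ} [Fact p.Prime] {𝓕 : Set (Subgroup G)} {S X : Subgroup G} :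
    X ∈ Cfsg.sylowMembers p 𝓕 S ↔ X ∈ 𝓕 ∧ SylIn p (S ⊓ X) X := by
  unfold Cfsg.sylowMembers
  rw [Set.mem_ofPred_eq, exists_sylow_map_eq_iff]

theorem sylowMembers_cj [Finite G] {p : ℕ} [Fact p.Prime] {𝓕 : Set (Subgroup G)} (h𝓕 : Cfsg.IsNormalSet 𝓕)
    {S X : Subgroup G} (h : X ∈ Cfsg.sylowMembers p 𝓕 S) (g : G) :
    cj g X ∈ Cfsg.sylowMembers p 𝓕 (cj g S) := by
  rw [mem_sylowMembers_iff] at h ⊢
  refine ⟨IsNormalSet.cj_mem h𝓕 h.1 g, ?_⟩
  rw [← cj_inf]
  exact h.2.cj g

/-- One link of a chain in the definition of `Cfsg.ControlsSylowIntersections`. -/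
def Step (p : ℕ) (𝓕 : Set (Subgroup G)) (D : Subgroup G) (P P' : Sylow p G) : Prop :=
  ∃ (X : Subgroup G) (x : G), X ∈ Cfsg.sylowMembers p 𝓕 (P : Subgroup G) ∧
    X ∈ Cfsg.sylowMembers p 𝓕 (P' : Subgroup G) ∧ x ∈ X ∧
    Cfsg.subgroupConjRight x (P' : Subgroup G) = (P : Subgroup G) ∧ D ≤ (P' : Subgroup G) ⊓ X

theorem controls_iff {p : ℕ} {𝓕 : Set (Subgroup G)} :
    Cfsg.ControlsSylowIntersections p 𝓕 ↔
      ∀ S T : Sylow p G, S ≠ T → (S : Subgroup G) ⊓ (T : Subgroup G) ≠ ⊥ →
        ReflTransGen (Step p 𝓕 ((S : Subgroup G) ⊓ (T : Subgroup G))) S T := by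
  constructor
  · intro h S T hne hbot
    obtain ⟨n, c, X, x, h0, hl, hs⟩ := h S T hne hbot
    exact (exists_chain_iff_reflTransGen _ _ _).mp ⟨n, c, h0, hl, fun i => ⟨X i, x i, hs i⟩⟩
  · intro h S T hne hbot
    obtain ⟨n, c, h0, hl, hs⟩ := (exists_chain_iff_reflTransGen _ _ _).mpr (h S T hne hbot)
    choose X x hXx using hs
    exact ⟨n, c, X, x, h0, hl, hXx⟩

theorem Step.mono {p : ℕ} {𝓕 : Set (Subgroup G)} {D D' : Subgroup G} (hD : D' ≤ D) {P P' : Sylow p G}
    (h : Step p 𝓕 D P P') : Step p 𝓕 D' P P' := by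
  obtain ⟨X, x, h1, h2, h3, h4, h5⟩ := h
  exact ⟨X, x, h1, h2, h3, h4, hD.trans h5⟩

theorem chainConnected_reflTransGen {p : ℕ} (h : Cfsg.IsSylowChainConnected p G) (S T : Sylow p G) :
    ReflTransGen (fun P P' : Sylow p G => P ≠ P' ∧ (P : Subgroup G) ⊓ (P' : Subgroup G) ≠ ⊥) S T := by
  obtain ⟨n, c, h0, hl, -, hs⟩ := h S T
  exact (exists_chain_iff_reflTransGen _ _ _).mp ⟨n, c, h0, hl, hs⟩

/-- The factorisations `u = y₁ ⋯ yₙ` in the definition of (strong) control of fusion. -/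
inductive FusChain (p : ℕ) (𝓕 : Set (Subgroup G)) (S : Subgroup G) (A : Set G) : G → Prop
  | nil : FusChain p 𝓕 S A 1
  | snoc (u y : G) (Y : Subgroup G) : FusChain p 𝓕 S A u → Y ∈ Cfsg.sylowMembers p 𝓕 S → y ∈ Y →
      Cfsg.conjRight (u * y) A ⊆ (S : Set G) ∩ (Y : Set G) → FusChain p 𝓕 S A (u * y)

theorem ofFn_snoc {α : Type*} {n : ℕ} (y : Fin n → α) (y' : α) :
    List.ofFn (Fin.snoc (α := fun _ => α) y y') = List.ofFn y ++ [y'] := by
  rw [List.ofFn_succ', List.concat_eq_append]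
  simp

theorem ofFn_eq_append_last {α : Type*} {n : ℕ} (y : Fin (n + 1) → α) :
    List.ofFn y = List.ofFn (fun i : Fin n => y i.castSucc) ++ [y (Fin.last n)] := by
  rw [List.ofFn_succ', List.concat_eq_append]

theorem fusChain_iff {p : ℕ} {𝓕 : Set (Subgroup G)} {S : Subgroup G} {A : Set G} {u : G} :
    FusChain p 𝓕 S A u ↔ ∃ (n : ℕ) (Y : Fin n → Subgroup G) (y : Fin n → G),
      (∀ i : Fin n, Y i ∈ Cfsg.sylowMembers p 𝓕 S ∧ y i ∈ Y i) ∧ u = (List.ofFn y).prod ∧
      ∀ i : Fin n, Cfsg.conjRight (((List.ofFn y).take (i.val + 1)).prod) A ⊆ (S : Set G) ∩ (Y i : Set G) := by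
  constructor
  · intro h
    induction h with
    | nil => exact ⟨0, fun i => i.elim0, fun i => i.elim0, fun i => i.elim0, by simp, fun i => i.elim0⟩
    | snoc u y' Y' _ hY' hy' hA ih =>
      obtain ⟨n, Y, y, h1, h2, h3⟩ := ih
      refine ⟨n + 1, Fin.snoc (α := fun _ => Subgroup G) Y Y', Fin.snoc (α := fun _ => G) y y', ?_, ?_, ?_⟩
      · intro i
        induction i using Fin.lastCases with
        | last => simp only [Fin.snoc_last]; exact ⟨hY', hy'⟩
        | cast j => simp only [Fin.snoc_castSucc]; exact h1 j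
      · rw [ofFn_snoc, List.prod_append, List.prod_singleton, h2]
      · intro i
        rw [ofFn_snoc]
        induction i using Fin.lastCases with
        | last =>
          rw [Fin.snoc_last, List.take_of_length_le (by simp), List.prod_append, List.prod_singleton, ← h2]
          exact hA
        | cast j =>
          rw [Fin.snoc_castSucc, Fin.val_castSucc,
            List.take_append_of_le_length (by rw [List.length_ofFn]; exact j.2)]
          exact h3 j
  · rintro ⟨n, Y, y, h1, h2, h3⟩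
    induction n generalizing u with
    | zero =>
      rw [h2]
      simpa using FusChain.nil
    | succ n ih =>
      have e := ofFn_eq_append_last y
      have hu : u = (List.ofFn (fun i : Fin n => y i.castSucc)).prod * y (Fin.last n) := by
        rw [h2, e, List.prod_append, List.prod_singleton]
      rw [hu]
      refine FusChain.snoc _ _ (Y (Fin.last n)) ?_ (h1 _).1 (h1 _).2 ?_
      · refine ih (fun i => Y i.castSucc) (fun i => y i.castSucc) (fun i => h1 i.castSucc) rfl ?_
        intro i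
        have := h3 i.castSucc
        rw [e, Fin.val_castSucc, List.take_append_of_le_length (by rw [List.length_ofFn]; exact i.2)] at this
        exact this
      · have := h3 (Fin.last n)
        rw [List.take_of_length_le (by simp), ← h2, hu] at this
        exact this

theorem stronglyControls_iff {p : ℕ} {𝓕 : Set (Subgroup G)} :
    Cfsg.FamilyStronglyControlsFusion p 𝓕 ↔
      ∀ (S : Sylow p G) (A : Set G) (g : G), A ⊆ (S : Set G) → (∃ a ∈ A, a ≠ 1) →
        Cfsg.conjRight g A ⊆ (S : Set G) →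
        ∃ u y₀ : G, FusChain p 𝓕 (S : Subgroup G) A u ∧
          y₀ ∈ normalizer ((S : Subgroup G) : Set G) ∧ g = u * y₀ := by
  constructor
  · intro h S A g hA hA1 hAg
    obtain ⟨n, Y, y, y₀, h0, h1, h2, h3⟩ := h S A g hA hA1 hAg
    exact ⟨_, y₀, fusChain_iff.mpr ⟨n, Y, y, h1, rfl, h3⟩, h0, h2⟩
  · intro h S A g hA hA1 hAg
    obtain ⟨u, y₀, hu, h0, h2⟩ := h S A g hA hA1 hAg
    obtain ⟨n, Y, y, h1, rfl, h3⟩ := fusChain_iff.mp hu
    exact ⟨n, Y, y, y₀, h0, h1, h2, h3⟩

end Cfsg.Agent.Lib.Helper49
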