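import Cfsg.Prelude.Def_SylowChains
import Cfsg.Agent.Lib.Helper49.SylowControl

/-!
Ambient reformulation of `Cfsg.IsFunctorRegular`: chains of Sylow subgroups of `M`, written as subgroups of `G`.
-/

set_option autoImplicit false

namespace Cfsg.Agent.Lib.Helper49

open Subgroup Relation

variable {G : Type*} [Group G]

theorem map_subtype_cj {M : Subgroup G} (y : M) (Q : Subgroup M) :
    (cj y Q).map M.subtype = cj (y : G) (Q.map M.subtype) := by
  ext a
  constructor
  · rintro ⟨_, ⟨b, hb, rfl⟩, rfl⟩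
    exact ⟨b, ⟨b, hb, rfl⟩, rfl⟩
  · rintro ⟨_, ⟨b, hb, rfl⟩, rfl⟩
    exact ⟨y * b * y⁻¹, ⟨b, hb, rfl⟩, rfl⟩

theorem mem_functorFamily_iff [Finite G] {p : ℕ} [Fact p.Prime] {f : Subgroup G → Set (Subgroup G)}
    {M X : Subgroup G} :
    X ∈ Cfsg.functorFamily p f M ↔
      ∃ P, SylIn p P M ∧ ∃ F ∈ f P, X = M ⊓ normalizer (F : Set G) := by
  constructor
  · rintro ⟨P, F, hF, rfl⟩
    exact ⟨_, sylIn_map_sylow P, F, hF, rfl⟩
  · rintro ⟨P, hP, F, hF, rfl⟩
    obtain ⟨P, rfl⟩ := exists_sylow_map_eq_iff.mpr hP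
    exact ⟨P, F, hF, rfl⟩

theorem nf_le {p : ℕ} {f : Subgroup G → Set (Subgroup G)}
    (hf : Cfsg.IsNormalizerFunctor p f) {P F : Subgroup G} (hP : IsPGroup p P) (hF : F ∈ f P) : F ≤ P :=
  ((hf P hP).1 F hF).1

theorem nf_normalizer_le {p : ℕ} {f : Subgroup G → Set (Subgroup G)}
    (hf : Cfsg.IsNormalizerFunctor p f) {P F : Subgroup G} (hP : IsPGroup p P) (hF : F ∈ f P) :
    normalizer (P : Set G) ≤ normalizer (F : Set G) :=
  ((hf P hP).1 F hF).2

theorem nf_le_normalizer {p : ℕ} {f : Subgroup G → Set (Subgroup G)}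
    (hf : Cfsg.IsNormalizerFunctor p f) {P F : Subgroup G} (hP : IsPGroup p P) (hF : F ∈ f P) :
    P ≤ normalizer (F : Set G) :=
  Subgroup.le_normalizer.trans (nf_normalizer_le hf hP hF)

theorem nf_cj_mem {p : ℕ} {f : Subgroup G → Set (Subgroup G)}
    (hf : Cfsg.IsNormalizerFunctor p f) {P F : Subgroup G} (hP : IsPGroup p P) (hF : F ∈ f P) (g : G) :
    cj g F ∈ f (cj g P) := by
  have := (hf P hP).2 g
  unfold cj
  rw [this]
  exact ⟨F, hF, rfl⟩

/-- One link of a chain in the ambient form of regularity. -/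
def RStep (p : ℕ) (f : Subgroup G → Set (Subgroup G)) (M D P P' : Subgroup G) : Prop :=
  SylIn p P M ∧ SylIn p P' M ∧ ∃ F ∈ f P', ∃ x ∈ M, x ∈ normalizer (F : Set G) ∧ cj x⁻¹ P' = P ∧ D ≤ P'

theorem step_iff_rStep [Finite G] {p : ℕ} [Fact p.Prime] {f : Subgroup G → Set (Subgroup G)}
    (hf : Cfsg.IsNormalizerFunctor p f) {M : Subgroup G} (D : Subgroup M) (P P' : Sylow p M) :
    Step p ((fun X : Subgroup G => X.subgroupOf M) '' Cfsg.functorFamily p f M) D P P' ↔
      RStep p f M (D.map M.subtype) ((P : Subgroup M).map M.subtype) ((P' : Subgroup M).map M.subtype) := by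
  constructor
  · rintro ⟨X, x, -, hX2, hxX, hxP, hD⟩
    rw [mem_sylowMembers_iff] at hX2
    obtain ⟨⟨_, ⟨Q, F, hF, rfl⟩, rfl⟩, hX2⟩ := hX2
    set X : Subgroup M := (M ⊓ normalizer (F : Set G)).subgroupOf M with hX
    have hQp : IsPGroup p ((Q : Subgroup M).map M.subtype) := Q.isPGroup'.map _
    have hQX : (Q : Subgroup M) ≤ X := by
      rw [hX, subgroupOf, ← map_le_iff_le_comap]
      exact le_inf (map_subtype_le _) (nf_le_normalizer hf hQp hF)
    have hQs : SylIn p (Q : Subgroup M) X := (sylIn_top_sylow Q).of_le hQX le_top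
    have hc : Nat.card (P' : Subgroup M) ≤ Nat.card ((P' : Subgroup M) ⊓ X : Subgroup M) := by
      rw [hX2.card_eq hQs]
      exact ((sylIn_top_sylow P').card_eq (sylIn_top_sylow Q)).le
    have hP'X : (P' : Subgroup M) ⊓ X = (P' : Subgroup M) := eq_of_le_of_card_ge inf_le_left hc
    rw [hP'X] at hX2
    obtain ⟨y, hy, hyQ⟩ := hQs.exists_conj hX2
    have hyN : (y : G) ∈ normalizer (F : Set G) := (mem_inf.mp (mem_subgroupOf.mp hy)).2
    have hxN : (x : G) ∈ normalizer (F : Set G) := (mem_inf.mp (mem_subgroupOf.mp hxX)).2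
    refine ⟨sylIn_map_sylow P, sylIn_map_sylow P', F, ?_, x, x.2, hxN, ?_, ?_⟩
    · rw [← hyQ, map_subtype_cj, ← cj_eq_iff_mem_normalizer.mpr hyN]
      exact nf_cj_mem hf hQp hF y
    · rw [← hxP, subgroupConjRight_eq, map_subtype_cj]
      rfl
    · exact map_mono (hD.trans inf_le_left)
  · rintro ⟨-, -, F, hF, x, hxM, hxN, hxP, hD⟩
    have hP'p : IsPGroup p ((P' : Subgroup M).map M.subtype) := P'.isPGroup'.map _
    set X : Subgroup M := (M ⊓ normalizer (F : Set G)).subgroupOf M with hX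
    have hX𝓕 : X ∈ (fun X : Subgroup G => X.subgroupOf M) '' Cfsg.functorFamily p f M :=
      ⟨_, ⟨P', F, hF, rfl⟩, rfl⟩
    have hP'X : (P' : Subgroup M) ≤ X := by
      rw [hX, subgroupOf, ← map_le_iff_le_comap]
      exact le_inf (map_subtype_le _) (nf_le_normalizer hf hP'p hF)
    have hxX : (⟨x, hxM⟩ : M) ∈ X := mem_subgroupOf.mpr (mem_inf.mpr ⟨hxM, hxN⟩)
    have hxP' : cj (⟨x, hxM⟩ : M)⁻¹ (P' : Subgroup M) = (P : Subgroup M) := by
      apply map_injective M.subtype_injective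
      rw [map_subtype_cj]
      exact hxP
    have hPX : (P : Subgroup M) ≤ X := by
      rw [← hxP', ← cj_eq_of_mem (inv_mem hxX)]
      exact cj_mono _ hP'X
    refine ⟨X, ⟨x, hxM⟩, ?_, ?_, hxX, hxP', ?_⟩
    · rw [mem_sylowMembers_iff, inf_eq_left.mpr hPX]
      exact ⟨hX𝓕, (sylIn_top_sylow P).of_le hPX le_top⟩
    · rw [mem_sylowMembers_iff, inf_eq_left.mpr hP'X]
      exact ⟨hX𝓕, (sylIn_top_sylow P').of_le hP'X le_top⟩
    · have : D ≤ (P' : Subgroup M) := (map_le_map_iff_of_injective M.subtype_injective).mp hD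
      exact le_inf this (this.trans hP'X)

/-- Ambient form of regularity. -/
def Reg (p : ℕ) (f : Subgroup G → Set (Subgroup G)) (M : Subgroup G) : Prop :=
  ∀ S T : Subgroup G, SylIn p S M → SylIn p T M → S ≠ T → S ⊓ T ≠ ⊥ →
    ReflTransGen (RStep p f M (S ⊓ T)) S T

theorem regular_iff [Finite G] {p : ℕ} [Fact p.Prime] {f : Subgroup G → Set (Subgroup G)}
    (hf : Cfsg.IsNormalizerFunctor p f) {M : Subgroup G} :
    Cfsg.IsFunctorRegular p f M ↔ Reg p f M := by
  unfold Cfsg.IsFunctorRegular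
  rw [controls_iff]
  have hinf : ∀ S T : Subgroup M, (S ⊓ T).map M.subtype = S.map M.subtype ⊓ T.map M.subtype :=
    fun S T => map_inf _ _ _ M.subtype_injective
  constructor
  · intro h S T hS hT hne hbot
    obtain ⟨S, rfl⟩ := exists_sylow_map_eq_iff.mpr hS
    obtain ⟨T, rfl⟩ := exists_sylow_map_eq_iff.mpr hT
    have h1 : S ≠ T := fun h => hne (by rw [h])
    have h2 : (S : Subgroup M) ⊓ (T : Subgroup M) ≠ ⊥ := by
      intro h
      apply hbot
      rw [← hinf, h, Subgroup.map_bot]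
    have := h S T h1 h2
    rw [← hinf]
    exact ReflTransGen.lift (fun P : Sylow p M => (P : Subgroup M).map M.subtype)
      (fun P P' hPP' => (step_iff_rStep hf _ P P').mp hPP') _ _ this
  · intro h S T hne hbot
    have h1 : (S : Subgroup M).map M.subtype ≠ (T : Subgroup M).map M.subtype := by
      intro h
      exact hne (Sylow.ext (map_injective M.subtype_injective h))
    have h2 : (S : Subgroup M).map M.subtype ⊓ (T : Subgroup M).map M.subtype ≠ ⊥ := by
      rw [← hinf]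
      intro h
      exact hbot ((map_eq_bot_iff_of_injective _ M.subtype_injective).mp h)
    have := h _ _ (sylIn_map_sylow S) (sylIn_map_sylow T) h1 h2
    rw [← hinf] at this
    have key : ∀ Q : Subgroup G,
        ReflTransGen (RStep p f M (((S : Subgroup M) ⊓ (T : Subgroup M)).map M.subtype))
          ((S : Subgroup M).map M.subtype) Q →
        ∀ P : Sylow p M, (P : Subgroup M).map M.subtype = Q →
          ReflTransGen (Step p ((fun X : Subgroup G => X.subgroupOf M) '' Cfsg.functorFamily p f M)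
            ((S : Subgroup M) ⊓ (T : Subgroup M))) S P := by
      intro Q hQ
      induction hQ with
      | refl =>
        intro P hP
        have : P = S := Sylow.ext (map_injective M.subtype_injective hP)
        rw [this]
      | @tail Q Q' _ hstep ih =>
        intro P' hP'
        obtain ⟨P, hP⟩ := exists_sylow_map_eq_iff.mpr hstep.1
        refine (ih P hP).tail ?_
        rw [step_iff_rStep hf, hP, hP']
        exact hstep
    exact key _ this T rfl

theorem RStep.anti {p : ℕ} {f : Subgroup G → Set (Subgroup G)} {M D D' P P' : Subgroup G} (hD : D' ≤ D)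
    (h : RStep p f M D P P') : RStep p f M D' P P' := by
  obtain ⟨h1, h2, F, hF, x, hx, hxN, hxP, h3⟩ := h
  exact ⟨h1, h2, F, hF, x, hx, hxN, hxP, hD.trans h3⟩

/-- Enlarging the subgroup, as long as the Sylow subgroups stay Sylow subgroups. -/
theorem RStep.mono [Finite G] {p : ℕ} [Fact p.Prime] {f : Subgroup G → Set (Subgroup G)}
    {M M' D P P' : Subgroup G} (hM : M ≤ M') {P₀ : Subgroup G} (h₀ : SylIn p P₀ M') (h₀M : P₀ ≤ M)
    (h : RStep p f M D P P') : RStep p f M' D P P' := by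
  obtain ⟨h1, h2, F, hF, x, hx, hxN, hxP, h3⟩ := h
  exact ⟨h1.mono hM h₀ h₀M, h2.mono hM h₀ h₀M, F, hF, x, hM hx, hxN, hxP, h3⟩

theorem RStep.cj {p : ℕ} {f : Subgroup G → Set (Subgroup G)} (hf : Cfsg.IsNormalizerFunctor p f)
    {M D P P' : Subgroup G} (h : RStep p f M D P P') (g : G) :
    RStep p f (cj g M) (cj g D) (cj g P) (cj g P') := by
  obtain ⟨h1, h2, F, hF, x, hx, hxN, hxP, h3⟩ := h
  refine ⟨h1.cj g, h2.cj g, Helper49.cj g F, nf_cj_mem hf h2.isPGroup hF g, g * x * g⁻¹, conj_mem_cj g hx, ?_, ?_,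
    cj_mono g h3⟩
  · rw [normalizer_cj]
    exact conj_mem_cj g hxN
  · rw [← hxP, cj_cj, cj_cj]
    congr 1
    group

theorem Reg.cj {p : ℕ} {f : Subgroup G → Set (Subgroup G)} (hf : Cfsg.IsNormalizerFunctor p f)
    {M : Subgroup G} (h : Reg p f M) (g : G) : Reg p f (cj g M) := by
  intro S T hS hT hne hbot
  have hS' : SylIn p (Helper49.cj g⁻¹ S) M := by
    have := hS.cj g⁻¹
    rwa [cj_inv_cj] at this
  have hT' : SylIn p (Helper49.cj g⁻¹ T) M := by
    have := hT.cj g⁻¹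
    rwa [cj_inv_cj] at this
  have h1 : Helper49.cj g⁻¹ S ≠ Helper49.cj g⁻¹ T := fun h => hne (cj_injective _ h)
  have h2 : Helper49.cj g⁻¹ S ⊓ Helper49.cj g⁻¹ T ≠ ⊥ := by
    rw [← cj_inf]
    intro h
    exact hbot (cj_eq_bot_iff.mp h)
  have := ReflTransGen.lift (Helper49.cj g) (fun P P' hPP' => RStep.cj hf hPP' g) _ _ (h _ _ hS' hT' h1 h2)
  rw [← cj_inf, cj_cj_inv] at this
  unfold Function.onFun at this
  rwa [cj_cj_inv, cj_cj_inv] at this

end Cfsg.Agent.Lib.Helper49
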